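import Cfsg.Agent.CharTwoEarly.Basic
import Cfsg.Prelude.Def_OddOrderLocal

/-!
# The main argument
-/

namespace CfsgLib.CharTwoEarly

open scoped Pointwise

open Cfsg CfsgLib.GroupAlperin

variable {G : Type*} [Group G] [Finite G]

theorem isPConstrained_centralizer {x : G} (hx : x * x = 1) (hx1 : x ≠ 1)
    (hcon : ∀ T : Subgroup G, IsPGroup 2 ↥T → T ≠ ⊥ → IsPConstrained 2 ↥(Subgroup.normalizer (T : Set G))) :
    IsPConstrained 2 ↥(Subgroup.centralizer ({x} : Set G)) := by
  haveI : Fact (Nat.Prime 2) := ⟨Nat.prime_two⟩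
  have hp : IsPGroup 2 (Subgroup.zpowers x) := IsPGroup.of_card (n := 1) (by
    rw [Nat.card_zpowers, pow_one]; exact orderOf_eq_prime (by rw [pow_two, hx]) hx1)
  have h := CfsgLib.Signalizer.isPConstrained_centralizer_of_normalizer hp
    (hcon _ hp (fun h => hx1 (Subgroup.zpowers_eq_bot.1 h)))
  rw [Subgroup.zpowers_eq_closure, Subgroup.centralizer_closure] at h
  exact h

/-- An odd subgroup of `C(x)` centralising a 2-subgroup `P` and normalised by `C(P) ∩ C(x)` is in the core. -/
theorem le_core {x : G} (hc : IsPConstrained 2 ↥(Subgroup.centralizer ({x} : Set G))) {P Q : Subgroup G}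
    (hP : IsPGroup 2 P) (hPx : P ≤ Subgroup.centralizer ({x} : Set G))
    (hQx : Q ≤ Subgroup.centralizer ({x} : Set G)) (hQ : Odd (Nat.card Q))
    (hcomm : ∀ q ∈ Q, ∀ t ∈ P, t * q = q * t)
    (hn : ∀ c : G, c * x = x * c → (∀ t ∈ P, t * c = c * t) → ∀ q ∈ Q, c * q * c⁻¹ ∈ Q) :
    Q ≤ centralizerPPrimeCore 2 x := by
  haveI : Fact (Nat.Prime 2) := ⟨Nat.prime_two⟩
  set C := Subgroup.centralizer ({x} : Set G)
  have h : Q.subgroupOf C ≤ pPrimeCore 2 C := by
    refine CfsgLib.PCore.le_pPrimeCore_of_normalized hc (P := P.subgroupOf C) hP.comap_subtype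
      (Nat.Coprime.coprime_dvd_left (CfsgLib.PCore.card_subgroupOf_dvd Q C) (coprime_two.2 hQ)) ?_ ?_ ?_
    · intro q hq
      exact Subgroup.centralizer_le_normalizer _ (Subgroup.mem_centralizer_iff.2 fun t ht =>
        Subtype.ext (hcomm _ hq _ ht))
    · intro t ht
      exact Subgroup.centralizer_le_normalizer _ (Subgroup.mem_centralizer_iff.2 fun q hq =>
        Subtype.ext (hcomm _ hq _ ht).symm)
    · intro c hc'
      refine Subgroup.mem_normalizer_fintype ?_
      intro q hq
      refine hn c (Subgroup.mem_centralizer_singleton_iff.1 c.2) (fun t ht => ?_) _ hq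
      exact congrArg Subtype.val (Subgroup.mem_centralizer_iff.1 hc' ⟨t, hPx ht⟩ ht)
  intro q hq
  exact ⟨⟨q, hQx hq⟩, h hq, rfl⟩

theorem exists_noncyclic [IsSimpleGroup G] (hG : ¬ IsMulCommutative G) (S : Sylow 2 G) (A : Subgroup G)
    (hA : IsSCN (S : Subgroup G) A) (hA3 : ¬ PRankLE 2 2 ↥A)
    (hinv : ∀ X : Subgroup G, Odd (Nat.card ↥X) → (S : Subgroup G) ≤ Subgroup.normalizer (X : Set G) → X = ⊥)
    (hcon : ∀ T : Subgroup G, IsPGroup 2 ↥T → T ≠ ⊥ → IsPConstrained 2 ↥(Subgroup.normalizer (T : Set G))) :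
    ∃ M : Subgroup G, IsMaximalTwoLocal M ∧ ¬ IsCyclic ↥(Subgroup.center ↥(pCore 2 ↥M)) := by
  haveI : Fact (Nat.Prime 2) := ⟨Nat.prime_two⟩
  by_contra hcontra
  push_neg at hcontra
  have hAS := hA.1
  have hAab : ∀ a ∈ A, ∀ b ∈ A, a * b = b * a := by
    intro a ha b hb
    have : b ∈ (S : Subgroup G) ⊓ Subgroup.centralizer (A : Set G) := hA.2.2.symm ▸ hb
    exact Subgroup.mem_centralizer_iff.1 this.2 a ha
  let E : Subgroup G :=
    { carrier := {a | a ∈ A ∧ a * a = 1}
      mul_mem' := fun {a b} ha hb => ⟨mul_mem ha.1 hb.1, by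
        rw [show a * b * (a * b) = a * (b * a) * b by group, hAab b hb.1 a ha.1]
        rw [show a * (a * b) * b = a * a * (b * b) by group, ha.2, hb.2, one_mul]⟩
      one_mem' := ⟨one_mem _, one_mul 1⟩
      inv_mem' := fun {a} ha => ⟨A.inv_mem ha.1, by rw [← mul_inv_rev, ha.2, inv_one]⟩ }
  have hES : E ≤ (S : Subgroup G) := fun a ha => hAS ha.1
  have hEc : ∀ a ∈ E, ∀ b ∈ E, a * b = b * a := fun a ha b hb => hAab a ha.1 b hb.1
  have hEbig : 4 < Nat.card E := by
    by_contra hle
    apply hA3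
    intro B _ hB
    refine le_trans ?_ (le_of_not_gt hle)
    rw [Nat.card_congr (Subgroup.equivMapOfInjective B A.subtype A.subtype_injective).toEquiv]
    refine Subgroup.card_le_of_le ?_
    rintro _ ⟨b, hb, rfl⟩
    exact ⟨b.2, by have := hB b hb; rw [pow_two] at this; exact congrArg Subtype.val this⟩
  -- choice of `z` and `y`
  haveI hEn : (E.subgroupOf (S : Subgroup G)).Normal := ⟨fun a ha s => by
    have h1 := (Subgroup.mem_normalizer_iff.1 (hA.2.1 s.2) (a : G)).1 ha.1
    refine ⟨h1, ?_⟩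
    show (s : G) * a * (s : G)⁻¹ * ((s : G) * a * (s : G)⁻¹) = 1
    calc (s : G) * a * (s : G)⁻¹ * ((s : G) * a * (s : G)⁻¹) = s * ((a : G) * a) * (s : G)⁻¹ := by group
      _ = 1 := by rw [show (a : G) * a = 1 from ha.2]; group⟩
  have hcardE : Nat.card (E.subgroupOf (S : Subgroup G)) = Nat.card E :=
    Nat.card_congr (Subgroup.subgroupOfEquivOfLe hES).toEquiv
  have hEne : E.subgroupOf (S : Subgroup G) ≠ ⊥ := fun h => by
    rw [h, Subgroup.card_bot] at hcardE; omega
  obtain ⟨⟨zs, hzs⟩, hzs1⟩ := (Subgroup.ne_bot_iff_exists_ne_one).1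
    (CfsgLib.PReduced.inf_center_ne_bot S.2 hEne)
  set z : G := (zs : G) with hzdef
  have hzE : z ∈ E := hzs.1
  have hzz : z * z = 1 := hzE.2
  have hz1 : z ≠ 1 := fun h => hzs1 (Subtype.ext (Subtype.ext h))
  have hzS : z ∈ (S : Subgroup G) := hES hzE
  have hzc : ∀ s ∈ (S : Subgroup G), s * z = z * s := fun s hs =>
    congrArg Subtype.val (Subgroup.mem_center_iff.1 hzs.2 ⟨s, hs⟩)
  have hzi : z⁻¹ = z := inv_eq_of_mul_eq_one_right hzz
  let Z : Subgroup (S : Subgroup G) :=
    { carrier := {a | (a : G) = 1 ∨ (a : G) = z}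
      mul_mem' := by
        intro a b ha hb
        show (a : G) * b = 1 ∨ (a : G) * b = z
        rcases ha with ha | ha <;> rcases hb with hb | hb <;> rw [ha, hb]
        · exact Or.inl (one_mul 1)
        · exact Or.inr (one_mul z)
        · exact Or.inr (mul_one z)
        · exact Or.inl hzz
      one_mem' := Or.inl rfl
      inv_mem' := by
        intro a ha
        show (a : G)⁻¹ = 1 ∨ (a : G)⁻¹ = z
        rcases ha with ha | ha <;> rw [ha]
        · exact Or.inl inv_one
        · exact Or.inr hzi }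
  haveI : Z.Normal := ⟨fun a ha s => by
    rcases ha with ha | ha
    · left; simp [ha]
    · right; simp [ha, hzc _ s.2]⟩
  have hnle : ¬ E.subgroupOf (S : Subgroup G) ≤ Z := by
    intro h
    have h1 := Subgroup.card_le_of_le h
    rw [hcardE] at h1
    have : Nat.card Z ≤ 2 := by
      have hsub : (Z : Set (S : Subgroup G)) ⊆ {1, ⟨z, hzS⟩} := by
        rintro a (ha | ha)
        · left; exact Subtype.ext ha
        · right; exact Subtype.ext ha
      calc Nat.card Z = (Z : Set (S : Subgroup G)).ncard := (Nat.card_coe_set_eq _)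
        _ ≤ _ := Set.ncard_le_ncard hsub
        _ ≤ 2 := (Set.ncard_insert_le _ _).trans (by rw [Set.ncard_singleton])
    omega
  obtain ⟨ys, hys, hysZ, hyc⟩ := exists_central_mod S.2 (E.subgroupOf (S : Subgroup G)) Z hnle
  set y : G := (ys : G) with hydef
  have hyE : y ∈ E := hys
  have hyy : y * y = 1 := hyE.2
  have hy1 : y ≠ 1 := fun h => hysZ (Or.inl h)
  have hyz : y ≠ z := fun h => hysZ (Or.inr h)
  have hyS : y ∈ (S : Subgroup G) := hES hyE
  have hyconj : ∀ s ∈ (S : Subgroup G), s * y * s⁻¹ = y ∨ s * y * s⁻¹ = z * y := by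
    intro s hs
    rcases hyc ⟨s, hs⟩ with h | h
    · left; exact mul_inv_eq_one.1 h
    · right; exact mul_inv_eq_iff_eq_mul.1 h
  -- a third involution
  obtain ⟨e, heE, he1, hez, hey, hezy⟩ : ∃ e ∈ E, e ≠ 1 ∧ e ≠ z ∧ e ≠ y ∧ e ≠ z * y := by
    by_contra hcon'
    push_neg at hcon'
    have hsub : (E : Set G) ⊆ {1, z, y, z * y} := by
      intro a ha
      simp only [Set.mem_insert_iff, Set.mem_singleton_iff]
      by_cases h1 : a = 1
      · exact Or.inl h1
      by_cases h2 : a = z
      · exact Or.inr (Or.inl h2)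
      by_cases h3 : a = y
      · exact Or.inr (Or.inr (Or.inl h3))
      exact Or.inr (Or.inr (Or.inr (hcon' a ha h1 h2 h3)))
    have : Nat.card E ≤ 4 := by
      calc Nat.card E = (E : Set G).ncard := Nat.card_coe_set_eq _
        _ ≤ _ := Set.ncard_le_ncard hsub
        _ ≤ 4 := by
          refine (Set.ncard_insert_le _ _).trans ?_
          have h2 := Set.ncard_insert_le z ({y, z * y} : Set G)
          have h3 := Set.ncard_insert_le y ({z * y} : Set G)
          rw [Set.ncard_singleton] at h3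
          omega
    omega
  -- step 1: the core of `C(z)` is trivial
  let θ := fun x : G => centralizerPPrimeCore 2 x
  have hθz : θ z = ⊥ := by
    refine hinv _ (odd_centralizerPPrimeCore z) fun s hs => Subgroup.mem_normalizer_fintype fun q hq => ?_
    exact conj_mem_self (hzc s hs) hq
  have hC : ∀ x : G, x * x = 1 → x ≠ 1 → IsPConstrained 2 ↥(Subgroup.centralizer ({x} : Set G)) :=
    fun x h1 h2 => isPConstrained_centralizer h1 h2 hcon
  have bal : ∀ a b : G, a ∈ E → b ∈ E → b ≠ 1 → ∀ q ∈ θ a, b * q = q * b → q ∈ θ b := by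
    intro a b ha hb hb1 q hq hbq
    refine CfsgLib.PCore.centralizerPPrimeCore_inf_le (hEc a ha b hb) (n := 1)
      (by rw [pow_one, pow_two, ha.2]) (hC b hb.2 hb1) ⟨hq, Subgroup.mem_centralizer_singleton_iff.2 hbq.symm⟩
  have hinvθ : ∀ a ∈ E, (∀ q ∈ θ a, z * q * z⁻¹ = q⁻¹) ∧ ∀ q ∈ θ a, ∀ r ∈ θ a, q * r = r * q := by
    intro a ha
    refine inverts hzz (fun q hq => conj_mem_self (hEc z hzE a ha) hq) fun q hq hzq => ?_
    have := bal a z ha hzE hz1 q hq hzq
    rw [hθz] at this
    exact Subgroup.mem_bot.1 this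
  -- step 2: the cores of `C(y)` and `C(z * y)` are trivial
  have hzyE : z * y ∈ E := mul_mem hzE hyE
  have hzy1 : z * y ≠ 1 := fun h => hyz (by rw [eq_inv_of_mul_eq_one_right h, hzi])
  have heze : z * e ∈ E := mul_mem hzE heE
  have hze1 : z * e ≠ 1 := fun h => hez (by rw [eq_inv_of_mul_eq_one_right h, hzi])
  have hcom : θ y ≤ Subgroup.centralizer (θ (z * y) : Set G) := by
    let fixed : G → Set G := fun a => {r | r ∈ θ a ∧ (e * r = r * e ∨ z * e * r = r * (z * e))}
    have key : ∀ q ∈ fixed y, ∀ r ∈ fixed (z * y), q * r = r * q := by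
      rintro q ⟨hq, hq'⟩ r ⟨hr, hr'⟩
      have hqy : y * q = q * y :=
        (Subgroup.mem_centralizer_singleton_iff.1 (centralizerPPrimeCore_le 2 y hq)).symm
      have hrzy : z * y * r = r * (z * y) :=
        (Subgroup.mem_centralizer_singleton_iff.1 (centralizerPPrimeCore_le 2 (z * y) hr)).symm
      have prod : ∀ a b g : G, a * g = g * a → b * g = g * b → a * b * g = g * (a * b) := by
        intro a b g h1 h2; rw [mul_assoc, h2, ← mul_assoc, h1, mul_assoc]
      rcases hq' with hq' | hq' <;> rcases hr' with hr' | hr'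
      · exact (hinvθ e heE).2 _ (bal y e hyE heE he1 q hq hq') _ (bal (z * y) e hzyE heE he1 r hr hr')
      · -- common involution `y * e`
        have hcE := mul_mem hyE heE
        have hc1 : y * e ≠ 1 := fun h => hey (by
          rw [eq_inv_of_mul_eq_one_right h, inv_eq_of_mul_eq_one_right hyy])
        have e1 : z * y * (z * e) = y * e := by
          rw [hEc z hzE y hyE, mul_assoc y z, ← mul_assoc z z, hzz, one_mul]
        exact (hinvθ (y * e) hcE).2 _ (bal y _ hyE hcE hc1 q hq (prod y e q hqy hq')) _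
          (bal (z * y) _ hzyE hcE hc1 r hr (e1 ▸ prod _ _ r hrzy hr'))
      · -- common involution `y * (z * e)`
        have hcE := mul_mem hyE heze
        have hc1 : y * (z * e) ≠ 1 := fun h => hezy (by
          have h2 := eq_inv_of_mul_eq_one_right h
          rw [inv_eq_of_mul_eq_one_right hyy] at h2
          rw [← h2, ← mul_assoc, hzz, one_mul])
        have e1 : z * y * e = y * (z * e) := by rw [hEc z hzE y hyE, mul_assoc]
        exact (hinvθ _ hcE).2 _ (bal y _ hyE hcE hc1 q hq (prod y _ q hqy hq')) _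
          (bal (z * y) _ hzyE hcE hc1 r hr (e1 ▸ prod _ _ r hrzy hr'))
      · exact (hinvθ _ heze).2 _ (bal y _ hyE heze hze1 q hq hq') _ (bal (z * y) _ hzyE heze hze1 r hr hr')
    have gen : ∀ a ∈ E, ∀ q ∈ θ a, q ∈ Subgroup.closure (fixed a) := fun a ha q hq =>
      mem_closure_fixed heE.2 (odd_centralizerPPrimeCore a) (hinvθ a ha).2 (hinvθ a ha).1
        (fun r hr => conj_mem_self (hEc e heE a ha) hr) hq
    have h1 : Subgroup.closure (fixed y) ≤
        Subgroup.centralizer (Subgroup.closure (fixed (z * y)) : Set G) := by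
      rw [Subgroup.centralizer_closure, Subgroup.closure_le]
      exact fun q hq => Subgroup.mem_centralizer_iff.2 fun r hr => (key q hq r hr).symm
    intro q hq
    exact Subgroup.mem_centralizer_iff.2 fun r hr =>
      Subgroup.mem_centralizer_iff.1 (h1 (gen y hyE q hq)) r (gen _ hzyE r hr)
  have hW : θ y ⊔ θ (z * y) = ⊥ := by
    apply hinv
    · rw [Nat.odd_iff]
      by_contra heven
      have h2 : 2 ∣ Nat.card ↥(θ y ⊔ θ (z * y)) := by omega
      obtain ⟨⟨w, hw⟩, hwo⟩ := exists_prime_orderOf_dvd_card' 2 h2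
      rw [← Subgroup.orderOf_coe] at hwo
      have hw' : w ∈ ((θ y ⊔ θ (z * y) : Subgroup G) : Set G) := hw
      rw [Subgroup.coe_mul_of_left_le_normalizer_right _ _
        (hcom.trans (Subgroup.centralizer_le_normalizer _))] at hw'
      obtain ⟨q, hq, r, hr, hqr⟩ := Set.mem_mul.1 hw'
      have hcq : Commute q r := (Subgroup.mem_centralizer_iff.1 (hcom hq) r hr).symm
      have h1 : q ^ Nat.card (θ y) = 1 :=
        congrArg Subtype.val (pow_card_eq_one' : (⟨q, hq⟩ : θ y) ^ _ = 1)
      have h3 : r ^ Nat.card (θ (z * y)) = 1 :=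
        congrArg Subtype.val (pow_card_eq_one' : (⟨r, hr⟩ : θ (z * y)) ^ _ = 1)
      have h4 : w ^ (Nat.card (θ y) * Nat.card (θ (z * y))) = 1 := by
        show w ^ _ = 1
        rw [← (show q * r = w from hqr), hcq.mul_pow, pow_mul, h1, one_pow, one_mul, mul_comm, pow_mul, h3, one_pow]
      have h5 := orderOf_dvd_of_pow_eq_one h4
      rw [show orderOf w = 2 from hwo] at h5
      have h6 : (Nat.card (θ y) * Nat.card (θ (z * y))) % 2 = 1 :=
        Nat.odd_iff.1 ((odd_centralizerPPrimeCore y).mul (odd_centralizerPPrimeCore (z * y)))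
      omega
    · intro s hs
      refine Subgroup.mem_normalizer_fintype fun q hq => ?_
      have hsz : ∀ b, s * (z * b) * s⁻¹ = z * (s * b * s⁻¹) := fun b => by
        rw [← mul_assoc, hzc s hs]; group
      have : ((θ y ⊔ θ (z * y)).map (MulAut.conj s).toMonoidHom) ≤ θ y ⊔ θ (z * y) := by
        rw [Subgroup.map_sup, sup_le_iff]
        constructor
        · rintro _ ⟨q, hq, rfl⟩
          have h := conj_centralizerPPrimeCore 2 s y hq
          rcases hyconj s hs with e1 | e1 <;> rw [e1] at h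
          exacts [Subgroup.mem_sup_left h, Subgroup.mem_sup_right h]
        · rintro _ ⟨q, hq, rfl⟩
          have h := conj_centralizerPPrimeCore 2 s (z * y) hq
          rw [hsz] at h
          rcases hyconj s hs with e1 | e1 <;> rw [e1] at h
          · exact Subgroup.mem_sup_right h
          · rw [← mul_assoc, hzz, one_mul] at h; exact Subgroup.mem_sup_left h
      exact this ⟨q, hq, rfl⟩
  have hθy : θ y = ⊥ := le_bot_iff.1 (le_sup_left.trans hW.le)
  have hθzy : θ (z * y) = ⊥ := le_bot_iff.1 (le_sup_right.trans hW.le)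
  -- step 3: good subgroups
  have fixD : ∀ D : Subgroup G, CfsgLib.Goldschmidt.Good S D →
      ∀ n ∈ Subgroup.normalizer (D : Set G), n * z * n⁻¹ = z := by
    rintro D ⟨hDS, hcen, ⟨-, -, hOD, hinf, hsup⟩, -⟩ n hn
    set N := Subgroup.normalizer (D : Set G) with hNdef
    set O := (pPrimeCore 2 ↥N).map N.subtype with hOdef
    have hOodd : Odd (Nat.card O) := by
      rw [hOdef, Subgroup.card_map_of_injective Subtype.val_injective]
      exact coprime_two.1 (CfsgLib.PCore.pPrimeCore_coprime 2 _)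
    have hODn : O ≤ Subgroup.centralizer (D : Set G) := fun a ha =>
      Subgroup.mem_centralizer_iff.2 fun b hb => (hOD a ha b hb).symm
    have hzcent : z ∈ Subgroup.centralizer (D : Set G) :=
      Subgroup.mem_centralizer_iff.2 fun d hd => hzc d (hDS hd)
    have hzD : z ∈ D := by
      have h1 := hcen hzcent
      rw [← hsup] at h1
      have h1' : z ∈ ((O ⊔ D : Subgroup G) : Set G) := h1
      rw [Subgroup.coe_mul_of_left_le_normalizer_right _ _
        (hODn.trans (Subgroup.centralizer_le_normalizer _))] at h1'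
      obtain ⟨k, hk, d, hd, hkd⟩ := Set.mem_mul.1 h1'
      have hkd' : k * k * (d * d) = 1 := by
        calc k * k * (d * d) = k * (k * d) * d := by group
          _ = k * (d * k) * d := by rw [hOD k hk d hd]
          _ = (k * d) * (k * d) := by group
          _ = z * z := by rw [show k * d = z from hkd]
          _ = 1 := hzz
      have hkk : k * k ∈ O ⊓ D :=
        ⟨mul_mem hk hk, by rw [eq_inv_of_mul_eq_one_left hkd']; exact D.inv_mem (mul_mem hd hd)⟩
      rw [hinf, Subgroup.mem_bot] at hkk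
      have := eq_one_of_sq hOodd hk hkk
      rw [this, one_mul] at hkd
      exact (show d = z from hkd) ▸ hd
    have hObot : O = ⊥ := by
      refine le_bot_iff.1 (le_trans ?_ hθz.le)
      refine le_core (hC z hzz hz1) (P := D) (S.2.to_le hDS)
        (fun d hd => Subgroup.mem_centralizer_singleton_iff.2 (hzc d (hDS hd)))
        (fun q hq => Subgroup.mem_centralizer_singleton_iff.2 (hOD q hq z hzD)) hOodd
        (fun q hq t ht => (hOD q hq t ht).symm) fun c _ hct q hq => ?_
      have hcN : c ∈ N := Subgroup.centralizer_le_normalizer _ (Subgroup.mem_centralizer_iff.2 hct)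
      obtain ⟨q0, hq0, rfl⟩ := hq
      exact ⟨⟨c, hcN⟩ * q0 * ⟨c, hcN⟩⁻¹, (Cfsg.pPrimeCore_normal 2 ↥N).conj_mem q0 hq0 _, rfl⟩
    have hDp : IsPGroup 2 D := S.2.to_le hDS
    have hDne : D ≠ ⊥ := fun h => hz1 (Subgroup.mem_bot.1 (h ▸ hzD))
    -- a maximal 2-local subgroup containing `N`
    obtain ⟨M, hM⟩ := (Set.toFinite {K : Subgroup G | IsTwoLocal K ∧ N ≤ K}).exists_maximal
      ⟨N, ⟨D, hDp, hDne, rfl⟩, le_rfl⟩
    have hMmax : IsMaximalTwoLocal M :=
      ⟨hM.prop.1, fun K hK hle => le_antisymm (hM.le_of_ge ⟨hK, hM.prop.2.trans hle⟩ hle) hle⟩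
    have hNM : N ≤ M := hM.prop.2
    obtain ⟨T0, hT0, hT0ne, hMeq⟩ := hM.prop.1
    set T := (pCore 2 ↥M).map M.subtype with hTdef
    have hTp : IsPGroup 2 T := (CfsgLib.PCore.isPGroup_pCore 2 ↥M).map _
    have hMnT : M ≤ Subgroup.normalizer (T : Set G) := by
      intro m hm
      refine Subgroup.mem_normalizer_fintype ?_
      rintro t ⟨t0, ht0, rfl⟩
      exact ⟨⟨m, hm⟩ * t0 * ⟨m, hm⟩⁻¹, (Cfsg.pCore_normal 2 ↥M).conj_mem t0 ht0 _, rfl⟩
    have hT0T : T0 ≤ T := by
      intro t ht
      have htM : t ∈ M := hMeq ▸ Subgroup.le_normalizer ht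
      refine ⟨⟨t, htM⟩, ?_, rfl⟩
      haveI : (T0.subgroupOf M).Normal := Subgroup.normal_subgroupOf_of_le_normalizer (hMeq ▸ le_rfl)
      exact CfsgLib.PCore.le_pCore (N := T0.subgroupOf M) inferInstance hT0.comap_subtype ht
    have hTM : T ≤ M := Subgroup.map_subtype_le _
    have hDM : D ≤ M := Subgroup.le_normalizer.trans hNM
    have hTD : T ≤ D := by
      have hTN : ∀ t ∈ T, t ∈ N → t ∈ D := by
        intro t ht htN
        haveI : (T.subgroupOf N).Normal :=
          Subgroup.normal_subgroupOf_of_le_normalizer (hNM.trans hMnT)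
        have h1 := CfsgLib.PCore.pCore_le_pPrimePCore
          (CfsgLib.PCore.le_pCore (N := T.subgroupOf N) inferInstance hTp.comap_subtype
            (show (⟨t, htN⟩ : N) ∈ T.subgroupOf N from ht))
        have h2 : t ∈ (pPrimePCore 2 ↥N).map N.subtype := ⟨_, h1, rfl⟩
        rw [← hsup, hObot, bot_sup_eq] at h2
        exact h2
      have hP : IsPGroup 2 ↥(D ⊔ T) := hDp.to_sup_of_normal_right' hTp (hDM.trans hMnT)
      by_contra hnot
      have hlt : D.subgroupOf (D ⊔ T) < ⊤ := by
        rw [lt_top_iff_ne_top, ne_eq, Subgroup.subgroupOf_eq_top]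
        exact fun h => hnot (le_sup_right.trans h)
      haveI := hP.isNilpotent
      obtain ⟨x, hxn, hxD⟩ := SetLike.exists_of_lt
        (Group.normalizerCondition_of_isNilpotent (G := ↥(D ⊔ T)) _ hlt)
      rw [← Subgroup.subgroupOf_normalizer_eq le_sup_left, Subgroup.mem_subgroupOf] at hxn
      have hx' : (x : G) ∈ ((D ⊔ T : Subgroup G) : Set G) := x.2
      rw [Subgroup.coe_mul_of_left_le_normalizer_right _ _ (hDM.trans hMnT)] at hx'
      obtain ⟨d, hd, t, ht, hdt⟩ := Set.mem_mul.1 hx'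
      have htN : t ∈ N := by
        rw [show t = d⁻¹ * (x : G) by rw [← (show d * t = (x : G) from hdt)]; group]
        exact mul_mem (inv_mem (Subgroup.le_normalizer hd)) hxn
      exact hxD (show (x : G) ∈ D from (show d * t = (x : G) from hdt) ▸ mul_mem hd (hTN t ht htN))
    have hzM : z ∈ M := hDM hzD
    have hzT : (⟨z, hzM⟩ : M) ∈ pCore 2 ↥M := by
      by_contra hzT
      have hzT' : z ∉ T := by
        rintro ⟨z0, hz0, he0⟩
        exact hzT ((Subtype.ext he0 : z0 = ⟨z, hzM⟩) ▸ hz0)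
      -- `y` lies in `M` and centralises `T`
      have hyN : y ∈ N := by
        refine Subgroup.mem_normalizer_fintype ?_
        intro d hd
        rcases hyconj d (hDS hd) with h | h
        · have : y * d * y⁻¹ = d := by
            rw [(mul_inv_eq_iff_eq_mul.1 h).symm]; group
          rwa [this]
        · have : y * d * y⁻¹ = z * d := by
            have h' := mul_inv_eq_iff_eq_mul.1 h
            rw [show y * d = z * (d * y) from by rw [h', ← mul_assoc, ← mul_assoc, hzz, one_mul]]
            group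
          rw [this]; exact mul_mem hzD hd
      have hyT : ∀ t ∈ T, t * y = y * t := by
        intro t ht
        rcases hyconj t (hDS (hTD ht)) with h | h
        · exact mul_inv_eq_iff_eq_mul.1 h
        · exfalso; apply hzT'
          have : z = t * (y * t⁻¹ * y⁻¹) := by
            calc z = (z * y) * y⁻¹ := by group
              _ = _ := by rw [← h]; group
          rw [this]
          exact mul_mem ht ((Subgroup.mem_normalizer_iff.1 (hMnT (hNM hyN)) _).1 (T.inv_mem ht))
      have hzT2 : ∀ t ∈ T, t * z = z * t := fun t ht => hzc t (hDS (hTD ht))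
      set Y := (pPrimeCore 2 ↥M).map M.subtype with hYdef
      have hYodd : Odd (Nat.card Y) := by
        rw [hYdef, Subgroup.card_map_of_injective Subtype.val_injective]
        exact coprime_two.1 (CfsgLib.PCore.pPrimeCore_coprime 2 _)
      have hYT : ∀ q ∈ Y, ∀ t ∈ T, t * q = q * t := by
        rintro _ ⟨q, hq, rfl⟩ _ ⟨t, ht, rfl⟩
        have hdis : Disjoint (pCore 2 ↥M) (pPrimeCore 2 ↥M) :=
          disjoint_iff.2 CfsgLib.PCore.pCore_inf_pPrimeCore
        exact congrArg Subtype.val (Subgroup.commute_of_normal_of_disjoint _ _ (Cfsg.pCore_normal 2 ↥M)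
          (Cfsg.pPrimeCore_normal 2 ↥M) hdis t q ht hq).eq
      have hTne : T ≠ ⊥ := fun h => hT0ne (le_bot_iff.1 (h ▸ hT0T))
      have hNT : Subgroup.normalizer (T : Set G) = M := hMmax.2 _ ⟨T, hTp, hTne, rfl⟩ hMnT
      have invY : ∀ v : G, v * v = 1 → v ≠ 1 → θ v = ⊥ → v ∈ M → (∀ t ∈ T, t * v = v * t) →
          ∀ q ∈ Y, v * q * v⁻¹ = q⁻¹ := by
        intro v hv hv1 hθv hvM hvT
        have hnY : ∀ c ∈ M, ∀ q ∈ Y, c * q * c⁻¹ ∈ Y := by
          rintro c hc _ ⟨q, hq, rfl⟩
          exact ⟨⟨c, hc⟩ * q * ⟨c, hc⟩⁻¹, (Cfsg.pPrimeCore_normal 2 ↥M).conj_mem q hq _, rfl⟩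
        refine (inverts hv (hnY v hvM) fun q hq hvq => ?_).1
        have hle : Y ⊓ Subgroup.centralizer ({v} : Set G) ≤ θ v := by
          refine le_core (hC v hv hv1) (P := T) hTp
            (fun t ht => Subgroup.mem_centralizer_singleton_iff.2 (hvT t ht)) inf_le_right
            (Odd.of_dvd_nat hYodd (Subgroup.card_dvd_of_le inf_le_left))
            (fun q hq t ht => hYT q hq.1 t ht) fun c hcv hct q hq => ?_
          have hcM : c ∈ M := hNT ▸ Subgroup.centralizer_le_normalizer _ (Subgroup.mem_centralizer_iff.2 hct)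
          refine ⟨hnY c hcM q hq.1, Subgroup.mem_centralizer_singleton_iff.2 ?_⟩
          have hqv := Subgroup.mem_centralizer_singleton_iff.1 hq.2
          have hci : c⁻¹ * v = v * c⁻¹ := (Commute.inv_left hcv).eq
          calc c * q * c⁻¹ * v = c * q * (c⁻¹ * v) := by group
            _ = c * (q * v) * c⁻¹ := by rw [hci]; group
            _ = (c * v) * q * c⁻¹ := by rw [hqv]; group
            _ = v * (c * q * c⁻¹) := by rw [hcv]; group
        rw [hθv] at hle
        exact Subgroup.mem_bot.1 (hle ⟨hq, Subgroup.mem_centralizer_singleton_iff.2 hvq.symm⟩)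
      have hYbot : Y = ⊥ := by
        rw [eq_bot_iff]
        intro q hq
        have hyM := hNM hyN
        have i1 := invY z hzz hz1 hθz hzM hzT2 q hq
        have i2 := invY y hyy hy1 hθy hyM hyT
        have i3 := invY (z * y) hzyE.2 hzy1 hθzy (mul_mem hzM hyM) (fun t ht => by
          rw [← mul_assoc, hzT2 t ht, mul_assoc, hyT t ht, mul_assoc]) q hq
        have : z * y * q * (z * y)⁻¹ = q := by
          calc z * y * q * (z * y)⁻¹ = z * (y * q * y⁻¹) * z⁻¹ := by group
            _ = z * q⁻¹ * z⁻¹ := by rw [i2 q hq]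
            _ = (z * q * z⁻¹)⁻¹ := by group
            _ = q := by rw [i1, inv_inv]
        rw [this] at i3
        exact Subgroup.mem_bot.2 (eq_one_of_sq hYodd hq (by nth_rw 1 [i3]; exact inv_mul_cancel q))
      have hpp : pPrimeCore 2 ↥M = ⊥ := by
        have := (Subgroup.map_eq_bot_iff _).1 hYbot
        rwa [Subgroup.ker_subtype, le_bot_iff] at this
      have hMc : IsPConstrained 2 ↥M := hMeq ▸ hcon T0 hT0 hT0ne
      exact hzT ((CfsgLib.PCore.isPConstrained_iff_of_core_eq_bot hpp).1 hMc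
        (Subgroup.mem_centralizer_iff.2 fun t ht => Subtype.ext (hzT2 _ ⟨t, ht, rfl⟩)))
    exact fixed_of_cyclic (hcontra M hMmax) hzM hzT
      (fun t => hzc _ (hDS (hTD ⟨(t : M), t.2, rfl⟩))) hzz hz1 (hNM hn)
  -- step 4: `z` is isolated
  have hchain : ∀ {T : Subgroup G} {x : G}, CfsgLib.Goldschmidt.GChain S T x → x * z = z * x := by
    intro T x h
    induction h with
    | nil _ => rw [one_mul, mul_one]
    | cons D hD hx _ _ ih =>
      have := mul_inv_eq_iff_eq_mul.1 (fixD D hD _ hx)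
      rw [mul_assoc, ih, ← mul_assoc, this, mul_assoc]
  have hiso : ∀ g : G, g * z * g⁻¹ ∈ (S : Subgroup G) → g * z * g⁻¹ = z := by
    intro g hg
    have hT : Subgroup.zpowers z ≤ (S : Subgroup G) := Subgroup.zpowers_le.2 hzS
    have hTg : cj (Subgroup.zpowers z) g⁻¹ ≤ (S : Subgroup G) := by
      rw [cj, inv_inv, MonoidHom.map_zpowers, Subgroup.zpowers_le]
      exact hg
    obtain ⟨c, hc, x, hx, hgx⟩ := CfsgLib.Goldschmidt.fusion S _ _ g⁻¹ hT hTg rfl
    have h1 := Subgroup.mem_centralizer_iff.1 hc z (Subgroup.mem_zpowers z)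
    have h2 := hchain hx
    have h3 : g⁻¹ * z = z * g⁻¹ := by rw [hgx, mul_assoc, h2, ← mul_assoc, ← h1, mul_assoc]
    calc g * z * g⁻¹ = g * (z * g⁻¹) := mul_assoc _ _ _
      _ = g * (g⁻¹ * z) := by rw [h3]
      _ = z := mul_inv_cancel_left g z
  have ho : orderOf z = 2 := orderOf_eq_prime (by rw [pow_two, hzz]) hz1
  have hcm := CfsgLib.ZStar.zstar (CfsgLib.ZStar.isolated_of_sylow S ho hzS hiso)
  have hbot : pPrimeCore 2 G = ⊥ := by
    rcases (Cfsg.pPrimeCore_normal 2 G).eq_bot_or_eq_top with h | h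
    · exact h
    · exact absurd (h ▸ Subgroup.mem_top z) (CfsgLib.ZStar.not_mem_pPrimeCore_of_orderOf_two ho)
  have hzc' : z ∈ Subgroup.center G := by
    rw [Subgroup.mem_center_iff]
    intro g
    have := hcm g
    rw [hbot, Subgroup.mem_bot] at this
    exact (mul_inv_eq_iff_eq_mul.1 (mul_inv_eq_one.1 this)).symm
  rcases (Subgroup.center G).normal_of_characteristic.eq_bot_or_eq_top with h | h
  · exact hz1 (Subgroup.mem_bot.1 (h ▸ hzc'))
  · exact hG ⟨⟨fun a b => Subgroup.mem_center_iff.1 (h ▸ Subgroup.mem_top b) a⟩⟩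

end CfsgLib.CharTwoEarly
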